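import Mathlib
import Cfsg.Agent.Lib.Sour.Cyc

/-! Every element of `SL_n(2)`, `n ≥ 3`, is a commutator. -/

set_option autoImplicit false
open Module Polynomial

namespace H64.Sour
section gen
variable {K : Type*} [Field K]
variable {V W : Type*} [AddCommGroup V] [Module K V] [AddCommGroup W] [Module K W]

/-- monic quadratic with given trace and norm -/
noncomputable def q2 (t d : K) : K[X] := X ^ 2 - C t * X + C d

theorem q2_monic (t d : K) : (q2 t d).Monic := by unfold q2; monicity!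

theorem q2_irr {t d : K} (h : ∀ x, x ^ 2 - t * x + d ≠ 0) : Irreducible (q2 t d) := by
  refine irreducible_of_degree_le_three_of_not_isRoot ?_ fun x hx => h x (by simpa [q2] using hx)
  have : (q2 t d).natDegree = 2 := by unfold q2; compute_degree!
  simp [this]

theorem q2_eval (t d x : K) : (q2 t d).eval x = x ^ 2 - t * x + d := by simp [q2]

theorem charpoly_q2 {M : Matrix (Fin 2) (Fin 2) K} {t d : K} (h1 : M.trace = t) (h2 : M.det = d) :
    M.charpoly = q2 t d := by rw [Matrix.charpoly_fin_two, h1, h2, q2]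

theorem q2_two : q2 (2 : K) 1 = (X - C 1) * (X - C 1) := by
  rw [q2, C_1, show (C 2 : K[X]) = 2 from rfl]; ring

theorem similar_one_dim [FiniteDimensional K V] (h : finrank K V = 1) (g : End K V) :
    H65.Similar g (Matrix.toLin' !![LinearMap.det g]) := by
  let b := Module.finBasisOfFinrankEq K V h
  have := H65.similar_toMatrix b g
  convert this
  ext i j
  fin_cases i; fin_cases j
  rw [← LinearMap.det_toMatrix b]
  simp

theorem dec_mat [FiniteDimensional K V] {g : End K V} {x : V} (h : Cyc g x) (h2 : finrank K V = 2)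
    {hA hB : K[X]} (M : Matrix (Fin 2) (Fin 2) K) (h1 : M.det ≠ 0) (h3 : M.charpoly = hA)
    (h4 : (M * !![0, -LinearMap.det g; 1, LinearMap.trace K V g]).charpoly = hB)
    (h5 : hA.eval 1 ≠ 0) (r : Dual K (Fin 2 → K))
    (h6 : FixV (Matrix.toLin' (M * !![0, -LinearMap.det g; 1, LinearMap.trace K V g])) r) :
    ∃ c r, Dec g c r hA hB := by
  obtain ⟨e, -, k6⟩ := h.companion h2
  refine ⟨x, r ∘ₗ e.toLinearMap, Dec.of_equiv e k6 ?_⟩
  have k8 : (r ∘ₗ e.toLinearMap) ∘ₗ e.symm.toLinearMap = r := by ext; simp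
  rw [k8]
  have k9 : (Matrix.toLin' M).charpoly = hA := by rw [Matrix.charpoly_toLin', h3]
  refine ⟨Matrix.toLin' M, _, ?_, (Matrix.toLin'_mul _ _).symm, k9,
    by rw [Matrix.charpoly_toLin', h4], fixC_of_eval (k9 ▸ h5) _, h6⟩
  rw [LinearMap.isUnit_iff_isUnit_det, LinearMap.det_toLin']
  exact isUnit_iff_ne_zero.2 h1

theorem Prim.fd {P : K[X]} (h : Prim P) : FiniteDimensional K (AdjoinRoot P) :=
  h.monic.finite_adjoinRoot

end gen

theorem eq_one_two {a : ZMod 2} (h : a ≠ 0) : a = 1 := by revert a; decide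

theorem Com.two {V : Type*} [AddCommGroup V] [Module (ZMod 2) V] [FiniteDimensional (ZMod 2) V]
    {δ ε : ZMod 2} {g : End (ZMod 2) V} (h : Com δ ε g) : Com 1 1 g := by
  obtain ⟨A, b, h1, h2, -, -, h5⟩ := h
  exact ⟨A, b, h1, h2, eq_one_two ((LinearMap.isUnit_iff_isUnit_det _).1 h1).ne_zero,
    eq_one_two ((LinearMap.isUnit_iff_isUnit_det _).1 h2).ne_zero, h5⟩

theorem com_two_mat {n : ℕ} {g : Matrix (Fin n) (Fin n) (ZMod 2)}
    (A A' b b' : Matrix (Fin n) (Fin n) (ZMod 2)) (h1 : A * A' = 1) (h2 : b * b' = 1)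
    (h : A * g * b = b * A) : Com 1 1 (Matrix.toLin' g) :=
  com_of_matrix A b (eq_one_two (Matrix.isUnit_det_of_right_inverse h1).ne_zero)
    (eq_one_two (Matrix.isUnit_det_of_right_inverse h2).ne_zero) h

theorem irr_omega : Irreducible (q2 (1 : ZMod 2) 1) := q2_irr (by decide)

theorem omega_eval : (q2 (1 : ZMod 2) 1).eval 1 ≠ 0 := by rw [q2_eval]; decide

theorem base_omega : QD.{0} (ZMod 2) 2 1 (fun t => t = 1) False (q2 1 1) (q2 1 1) := by
  have h : (!![0, 1; 1, 1] : Matrix (Fin 2) (Fin 2) (ZMod 2)).charpoly = q2 1 1 :=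
    charpoly_q2 (by decide +kernel) (by rw [Matrix.det_fin_two]; decide +kernel)
  refine qd_mat !![0, 1; 1, 1] (by rw [Matrix.det_fin_two]; decide +kernel) h
    (charpoly_q2 (by decide +kernel) (by rw [Matrix.det_fin_two]; decide +kernel))
    (fixC_of_eval ?_ _) omega_eval
  rw [Matrix.charpoly_toLin', h]; exact omega_eval

theorem base_j : QD.{0} (ZMod 2) 2 1 (fun t => t = 0) False ((X - C 1) * (X - C 1)) (q2 1 1) := by
  refine qd_mat !![1, 0; 1, 1] (by rw [Matrix.det_fin_two]; decide +kernel)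
    ((charpoly_q2 (by decide +kernel) (by rw [Matrix.det_fin_two]; decide +kernel)).trans q2_two)
    (charpoly_q2 (by decide +kernel) (by rw [Matrix.det_fin_two]; decide +kernel))
    (fun ψ h1 h2 => ?_) omega_eval
  have h3 := h1 ![1, 0]
  have h4 : Matrix.toLin' (!![1, 0; 1, 1] : Matrix (Fin 2) (Fin 2) (ZMod 2)) ![1, 0] =
      ![1, 0] + ![0, 1] := by
    rw [Matrix.toLin'_apply]; decide +kernel
  rw [h4, map_add, h2, zero_add] at h3
  refine LinearMap.ext fun v => ?_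
  have : v = v 0 • ![1, 0] + v 1 • ![0, 1] := by ext i; fin_cases i <;> simp
  rw [this, map_add, map_smul, map_smul, h2, h3]; simp

/-- a Jordan block of size two -/
def IsJ (P : (ZMod 2)[X]) : Prop :=
  P.natDegree = 2 ∧ LinearMap.trace (ZMod 2) _ (H65.cyc P) = 0

theorem sq_omega (n : ℕ) : SQ ((X - C 1) ^ n * q2 (1 : ZMod 2) 1) :=
  (SQ.of_squarefree irr_omega.squarefree).pow_mul n

theorem two_single {P : (ZMod 2)[X]} (h : Prim P) (hd : LinearMap.det (H65.cyc P) = 1)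
    (hj : ¬ IsJ P) : CM 1 1 {P} := by
  have := h.fd
  refine CM.of (ty_cyc P) ?_
  have h1 := H65.finrank_adjoinRoot P
  have h2 := h.pos
  rcases Nat.lt_or_ge P.natDegree 3 with h3 | h3
  · rcases h2.eq_or_lt with h2 | h2
    · refine Com.of_similar ?_ (similar_one_dim (h1.trans h2.symm) _).symm
      rw [hd, show (!![1] : Matrix (Fin 1) (Fin 1) (ZMod 2)) = 1 by decide, Matrix.toLin'_one]
      exact com_one
    · have h4 : P.natDegree = 2 := by omega
      obtain ⟨c, r, h5⟩ := base_omega.dec (by omega) (h1.trans h4) (cyc_cyc P) hd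
        (eq_one_two fun h => hj ⟨h4, h⟩)
      obtain ⟨ε, h6⟩ := h5.com (by simpa using sq_omega 0)
      exact h6.two
  · obtain ⟨n, hn⟩ := Nat.exists_eq_add_of_le h3
    obtain ⟨c, r, h5⟩ := ((base_omega.up le_rfl (T' := fun _ => True) fun t _ =>
      ⟨t - 1 - 1, False.elim, by ring⟩).ups (by omega) n).dec (by omega) (h1.trans hn) (cyc_cyc P)
        hd trivial
    obtain ⟨ε, h6⟩ := h5.com (by
      rw [← mul_assoc, ← pow_succ]; exact sq_omega _)
    exact h6.two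

theorem IsJ.similar {P : (ZMod 2)[X]} (hj : IsJ P) (h : Prim P)
    (hd : LinearMap.det (H65.cyc P) = 1) :
    H65.Similar (H65.cyc P) (Matrix.toLin' !![0, -1; 1, 0]) := by
  have := h.fd
  have h1 := (cyc_cyc P).similar_companion ((H65.finrank_adjoinRoot P).trans hj.1)
  rwa [hd, hj.2] at h1

theorem two_pair {J P : (ZMod 2)[X]} (hJ : Prim J) (hJd : LinearMap.det (H65.cyc J) = 1)
    (hj : IsJ J) (h : Prim P) (hd : LinearMap.det (H65.cyc P) = 1) : CM 1 1 ({J} + {P}) := by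
  have := h.fd
  have := hJ.fd
  refine CM.of ((ty_cyc J).add (ty_cyc P)) ?_
  have h1 := H65.finrank_adjoinRoot P
  have h2 := h.pos
  have hs := hj.similar hJ hJd
  rcases h2.eq_or_lt with h2 | h2
  · have h3 := similar_one_dim (h1.trans h2.symm) (H65.cyc P)
    rw [hd] at h3
    refine Com.of_similar ?_ ((similar_blk hs h3).trans (similar_fromBlocks _ _)).symm
    exact com_two_mat !![1, 0, 0; 0, 1, 1; 1, 1, 0] !![1, 0, 0; 1, 0, 1; 1, 1, 1]
      !![0, 1, 0; 0, 1, 1; 1, 1, 1] !![0, 1, 1; 1, 0, 0; 1, 1, 0] (by decide +kernel)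
      (by decide +kernel) (by decide +kernel)
  by_cases h3 : P.natDegree = 2 ∧ LinearMap.trace (ZMod 2) _ (H65.cyc P) ≠ 0
  · have h4 := (cyc_cyc P).similar_companion (h1.trans h3.1)
    rw [hd, eq_one_two h3.2] at h4
    refine Com.of_similar ?_ ((similar_blk hs h4).trans (similar_fromBlocks _ _)).symm
    exact com_two_mat !![0, 1, 1, 0; 1, 0, 0, 0; 0, 1, 0, 0; 0, 0, 0, 1]
      !![0, 1, 0, 0; 0, 0, 1, 0; 1, 0, 1, 0; 0, 0, 0, 1]
      !![1, 1, 1, 0; 0, 0, 0, 1; 1, 1, 0, 0; 0, 1, 0, 0]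
      !![0, 0, 1, 1; 0, 0, 0, 1; 1, 0, 1, 0; 0, 1, 0, 0] (by decide +kernel)
      (by decide +kernel) (by decide +kernel)
  obtain ⟨c₁, r₁, k₁⟩ : ∃ c r, Dec (H65.cyc J) c r (q2 1 1) ((X - C 1) * (X - C 1)) := by
    refine dec_mat (cyc_cyc J) ((H65.finrank_adjoinRoot J).trans hj.1) !![0, 1; 1, 1]
      (by rw [Matrix.det_fin_two]; decide +kernel)
      (charpoly_q2 (by decide +kernel) (by rw [Matrix.det_fin_two]; decide +kernel)) ?_
      omega_eval (LinearMap.proj 1) ?_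
    · rw [hJd, hj.2]
      exact (charpoly_q2 (by decide +kernel)
        (by rw [Matrix.det_fin_two]; decide +kernel)).trans q2_two
    · rw [hJd, hj.2]
      intro v
      rw [Matrix.toLin'_apply, LinearMap.proj_apply]
      revert v
      decide +kernel
  obtain ⟨n, c₂, r₂, k₂⟩ : ∃ n c r, Dec (H65.cyc P) c r ((X - C 1) ^ n * ((X - C 1) * (X - C 1)))
      ((X - C 1) ^ n * q2 1 1) := by
    rcases Nat.lt_or_ge P.natDegree 3 with h4 | h4
    · have h5 : P.natDegree = 2 := by omega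
      refine ⟨0, ?_⟩
      simpa using base_j.dec (by omega) (h1.trans h5) (cyc_cyc P) hd (by
        by_contra h6; exact h3 ⟨h5, h6⟩)
    · obtain ⟨n, hn⟩ := Nat.exists_eq_add_of_le h4
      refine ⟨n + 1, ?_⟩
      simpa only [pow_succ, mul_assoc] using ((base_j.up le_rfl (T' := fun _ => True) fun t _ =>
        ⟨t - 1, False.elim, by ring⟩).ups (by omega) n).dec (by omega) (h1.trans hn) (cyc_cyc P)
          hd trivial
  obtain ⟨c, r, k⟩ := k₁.couple k₂ (by simp) (by simp)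
  have e1 : q2 (1 : ZMod 2) 1 * ((X - C 1) ^ n * ((X - C 1) * (X - C 1))) =
      (X - C 1) ^ (n + 2) * q2 1 1 := by ring
  have e2 : (X - C 1) * (X - C 1) * ((X - C 1) ^ n * q2 (1 : ZMod 2) 1) =
      (X - C 1) ^ (n + 2) * q2 1 1 := by ring
  rw [e1, e2] at k
  obtain ⟨ε, h6⟩ := k.com (sq_omega _)
  exact h6.two

theorem two_triple {J₁ J₂ J₃ : (ZMod 2)[X]} (h₁ : Prim J₁) (d₁ : LinearMap.det (H65.cyc J₁) = 1)
    (j₁ : IsJ J₁) (h₂ : Prim J₂) (d₂ : LinearMap.det (H65.cyc J₂) = 1) (j₂ : IsJ J₂)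
    (h₃ : Prim J₃) (d₃ : LinearMap.det (H65.cyc J₃) = 1) (j₃ : IsJ J₃) :
    CM 1 1 ({J₁} + {J₂} + {J₃}) := by
  have := h₁.fd
  have := h₂.fd
  have := h₃.fd
  refine CM.of (((ty_cyc J₁).add (ty_cyc J₂)).add (ty_cyc J₃)) ?_
  refine Com.of_similar ?_ ((similar_blk ((similar_blk (j₁.similar h₁ d₁) (j₂.similar h₂ d₂)).trans
    (similar_fromBlocks _ _)) (j₃.similar h₃ d₃)).trans (similar_fromBlocks _ _)).symm
  exact com_two_mat !![0, 0, 0, 0, 0, 1; 0, 1, 1, 0, 0, 0; 0, 0, 0, 1, 0, 0; 0, 0, 1, 1, 0, 1;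
      1, 0, 0, 0, 1, 0; 1, 0, 0, 0, 0, 1]
    !![1, 0, 0, 0, 0, 1; 1, 1, 1, 1, 0, 0; 1, 0, 1, 1, 0, 0; 0, 0, 1, 0, 0, 0; 1, 0, 0, 0, 1, 1;
      1, 0, 0, 0, 0, 0]
    !![0, 0, 1, 0, 1, 0; 1, 1, 1, 1, 0, 1; 0, 0, 0, 0, 1, 1; 1, 1, 1, 0, 1, 1; 1, 0, 0, 1, 1, 0;
      0, 1, 0, 0, 1, 1]
    !![0, 1, 0, 1, 1, 0; 0, 0, 1, 0, 0, 1; 0, 1, 0, 0, 1, 1; 1, 0, 0, 1, 1, 1; 1, 1, 0, 0, 1, 1;
      1, 1, 1, 0, 1, 1] (by decide +kernel) (by decide +kernel) (by decide +kernel)

theorem two_all (n : ℕ) : ∀ s : Multiset (ZMod 2)[X], s.card = n →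
    (∀ P ∈ s, Prim P ∧ LinearMap.det (H65.cyc P) = 1) → (∀ J, IsJ J → s ≠ {J}) → CM 1 1 s := by
  induction n using Nat.strong_induction_on with
  | _ n ih =>
    intro s hn hs hj
    rcases s.empty_or_exists_mem with rfl | ⟨P, hP⟩
    · exact cm_zero
    by_cases h1 : ∃ J ∈ s, IsJ J
    · obtain ⟨J, hJ, h1⟩ := h1
      obtain ⟨t, rfl⟩ := Multiset.exists_cons_of_mem hJ
      rcases t.empty_or_exists_mem with rfl | ⟨Q, hQ⟩
      · exact (hj J h1 rfl).elim
      obtain ⟨u, rfl⟩ := Multiset.exists_cons_of_mem hQ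
      have kJ := hs J (by simp)
      have kQ := hs Q (by simp)
      by_cases h2 : ∃ J', IsJ J' ∧ u = {J'}
      · obtain ⟨J', h2, rfl⟩ := h2
        have kJ' := hs J' (by simp)
        by_cases h3 : IsJ Q
        · exact two_triple kJ.1 kJ.2 h1 kQ.1 kQ.2 h3 kJ'.1 kJ'.2 h2
        · have := (two_pair kJ.1 kJ.2 h1 kJ'.1 kJ'.2).add (two_single kQ.1 kQ.2 h3)
          rw [one_mul, add_right_comm] at this
          exact this
      · have := (two_pair kJ.1 kJ.2 h1 kQ.1 kQ.2).add (ih u.card (by simp [← hn]) u rfl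
          (fun P hP => hs P (by simp [hP])) fun J' h3 h4 => h2 ⟨J', h3, h4⟩)
        rw [one_mul] at this
        simpa using this
    · obtain ⟨t, rfl⟩ := Multiset.exists_cons_of_mem hP
      have kP := hs P hP
      have := (two_single kP.1 kP.2 fun h => h1 ⟨P, hP, h⟩).add (ih t.card (by simp [← hn]) t rfl
        (fun P hP => hs P (by simp [hP])) fun J' h3 h4 => h1 ⟨J', by simp [h4], h3⟩)
      rw [one_mul] at this
      simpa using this

theorem com_two {V : Type*} [AddCommGroup V] [Module (ZMod 2) V] [FiniteDimensional (ZMod 2) V]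
    (hn : 3 ≤ finrank (ZMod 2) V) {g : End (ZMod 2) V} (hd : LinearMap.det g = 1) : Com 1 1 g := by
  obtain ⟨s, h1, h2, h3, h4⟩ := exists_ty g
  refine (two_all _ s rfl (fun P hP => ⟨h2 P hP, eq_one_two fun h => ?_⟩) ?_).use h1
  · rw [hd] at h3
    have : (s.map fun P => LinearMap.det (H65.cyc P)).prod = 0 :=
      Multiset.prod_eq_zero (Multiset.mem_map.2 ⟨P, hP, h⟩)
    exact zero_ne_one (this.symm.trans h3)
  · rintro J hJ rfl
    have := hJ.1
    simp at h4
    omega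

end H64.Sour
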