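import Mathlib
import Cfsg.Agent.Lib.Sour.F2

/-! Every element of `SL_n(3)`, `n ≥ 3`, is a commutator. -/

set_option autoImplicit false
open Module Polynomial

namespace H64.Sour

theorem Dec.finrank_eq {K V : Type*} [Field K] [AddCommGroup V] [Module K V] [FiniteDimensional K V]
    {g : End K V} {c : V} {r : Dual K V} {hA hB : K[X]} (h : Dec g c r hA hB) :
    finrank K V = hA.natDegree := by
  obtain ⟨A, -, -, -, rfl, -⟩ := h
  exact A.charpoly_natDegree.symm

theorem three_cases {a : ZMod 3} (h : a ≠ 0) : a = 1 ∨ a = -1 := by revert a; decide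

theorem dec_lin {P : (ZMod 3)[X]} (h : Prim P) {α β : ZMod 3} (hα : α ≠ 0) (hβ0 : β ≠ 0)
    (hβ : α * LinearMap.det (H65.cyc P) = β) (ht : P.natDegree = 2 → β = 1 →
      LinearMap.trace _ _ (H65.cyc P) ≠ 1 + LinearMap.det (H65.cyc P)) :
    haveI := h.fd
    ∃ n c r, Dec (H65.cyc P) c r ((X - C 1) ^ n * (X - C α)) ((X - C 1) ^ n * (X - C β)) := by
  have := h.fd
  have h1 := H65.finrank_adjoinRoot P
  rcases h.pos.eq_or_lt with h2 | h2
  · refine ⟨0, ?_⟩
    simpa only [pow_zero, one_mul] using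
      (qd_one hα hβ0 hβ).dec le_rfl (h1.trans h2.symm) (cyc_cyc P) rfl trivial
  rcases Nat.lt_or_ge P.natDegree 3 with h3 | h3
  · have h4 : P.natDegree = 2 := by omega
    refine ⟨1, ?_⟩
    simpa only [pow_one] using
      (qd_two hα hβ0 hβ).dec (by omega) (h1.trans h4) (cyc_cyc P) rfl (ht h4)
  · obtain ⟨n, hn⟩ := Nat.exists_eq_add_of_le h3
    refine ⟨n + 1 + 1, ?_⟩
    have key : ∀ t s : ZMod 3, ∃ u, u ≠ 0 ∧ t - 1 - u ≠ s := by decide
    simpa only [pow_succ, mul_assoc] using (((qd_two hα hβ0 hβ).up le_rfl (T' := fun _ => True)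
      fun t _ => by
        obtain ⟨u, k1, k2⟩ := key t (1 + LinearMap.det (H65.cyc P))
        exact ⟨u, fun _ => k1, fun _ => k2⟩).ups (by omega) n).dec (by omega) (h1.trans hn)
          (cyc_cyc P) rfl trivial

theorem trace_ne_zero_three {P : (ZMod 3)[X]} (h : Prim P) (hd : LinearMap.det (H65.cyc P) = -1)
    (h2 : P.natDegree = 2) : LinearMap.trace _ _ (H65.cyc P) ≠ 0 := by
  intro ht
  have := h.fd
  have h3 := charpoly_of_two (cyc_cyc P) ((H65.finrank_adjoinRoot P).trans h2)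
  rw [H65.charpoly_cyc h.monic, ht, hd] at h3
  obtain ⟨p, e, k1, k2, k3, k4⟩ := h
  have k5 : ∀ a : ZMod 3, a ^ 2 = 1 → p.eval a = 0 := fun a ha => by
    have : P.eval a = 0 := by rw [h3]; simp [ha]
    rw [k4, eval_pow] at this
    exact pow_eq_zero_iff k3.ne' |>.1 this
  have k6 : p = X - C 1 := (eq_of_monic_of_associated (monic_X_sub_C 1) k2
    ((irreducible_X_sub_C 1).associated_of_dvd k1 (dvd_iff_isRoot.2 (k5 1 (by decide))))).symm
  have k7 := k5 (-1) (by decide)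
  rw [k6] at k7
  simp only [eval_sub, eval_X, eval_C] at k7
  revert k7; decide

theorem Dec.comN {V : Type*} [AddCommGroup V] [Module (ZMod 3) V] [FiniteDimensional (ZMod 3) V]
    {g : End (ZMod 3) V} {c : V} {r : Dual (ZMod 3) V} {n : ℕ}
    (h : Dec g c r ((X - C 1) ^ n * (X - C (-1))) ((X - C 1) ^ n * (X - C (-1)))) :
    ∃ ε, Com (-1) ε g := by
  have h1 := h.finrank_eq
  rw [((monic_X_sub_C _).pow n).natDegree_mul (monic_X_sub_C _), natDegree_pow, natDegree_X_sub_C,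
    natDegree_X_sub_C, mul_one] at h1
  convert h.com ((SQ.of_squarefree (irreducible_X_sub_C _).squarefree).pow_mul n)
  rw [h1, coeff_zero_eq_eval_zero]
  simp only [eval_mul, eval_pow, eval_sub, eval_X, eval_C, zero_sub, neg_neg, mul_one]
  rw [pow_succ, mul_right_comm, ← mul_pow]; simp

theorem irr_pi : Irreducible (q2 (1 : ZMod 3) (-1)) := q2_irr (by decide)

theorem pi_eval : (q2 (1 : ZMod 3) (-1)).eval 1 ≠ 0 := by rw [q2_eval]; decide

theorem Dec.comZ {V : Type*} [AddCommGroup V] [Module (ZMod 3) V] [FiniteDimensional (ZMod 3) V]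
    {g : End (ZMod 3) V} {c : V} {r : Dual (ZMod 3) V} {n : ℕ}
    (h : Dec g c r ((X - C (-1)) * ((X - C 1) ^ n * q2 1 (-1)))
      ((X - C (-1)) * ((X - C 1) ^ n * q2 1 (-1)))) : Com 1 1 g := by
  have h1 := h.finrank_eq
  have h2 : (q2 (1 : ZMod 3) (-1)).natDegree = 2 := by unfold q2; compute_degree!
  rw [(monic_X_sub_C _).natDegree_mul (((monic_X_sub_C _).pow n).mul (q2_monic _ _)),
    ((monic_X_sub_C _).pow n).natDegree_mul (q2_monic _ _), natDegree_pow, natDegree_X_sub_C,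
    natDegree_X_sub_C, mul_one, h2] at h1
  have h3 : ¬ (X - C (-1 : ZMod 3)) ∣ q2 1 (-1) := by
    rw [dvd_iff_isRoot, IsRoot, q2_eval]; decide
  convert h.com_one ?_ (irreducible_X_sub_C _) (monic_X_sub_C _) ?_
  · rw [h1, coeff_zero_eq_eval_zero]
    simp only [eval_mul, eval_pow, eval_sub, eval_X, eval_C, zero_sub, neg_neg, one_mul, q2_eval]
    have h4 : ((-1 : ZMod 3) ^ n) * (-1) ^ n = 1 := by rw [← mul_pow]; simp
    rw [pow_add, pow_add]
    linear_combination -h4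
  · rw [mul_left_comm]
    refine (SQ.of_squarefree (squarefree_mul_iff.2 ⟨?_, (irreducible_X_sub_C _).squarefree,
      irr_pi.squarefree⟩)).pow_mul n
    exact (irreducible_X_sub_C _).isRelPrime_iff_not_dvd.2 h3
  · rw [dvd_iff_isRoot, IsRoot, eval_mul, q2_eval, mul_eq_zero, not_or]
    refine ⟨?_, by decide⟩
    simp only [eval_pow, eval_sub, eval_X, eval_C]
    exact pow_ne_zero _ (by decide)

theorem base_pi : QD.{0} (ZMod 3) 2 1 (fun t => t = 0) False (q2 1 (-1)) (q2 1 (-1)) := by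
  have h : (!![2, 2; 1, 2] : Matrix (Fin 2) (Fin 2) (ZMod 3)).charpoly = q2 1 (-1) :=
    charpoly_q2 (by decide +kernel) (by rw [Matrix.det_fin_two]; decide +kernel)
  refine qd_mat !![2, 2; 1, 2] (by rw [Matrix.det_fin_two]; decide +kernel) h
    (charpoly_q2 (by decide +kernel) (by rw [Matrix.det_fin_two]; decide +kernel))
    (fixC_of_eval ?_ _) pi_eval
  rw [Matrix.charpoly_toLin', h]; exact pi_eval

theorem three_single {P : (ZMod 3)[X]} (h : Prim P) (hd : LinearMap.det (H65.cyc P) = 1) :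
    ∃ ε, CM (-1) ε {P} := by
  have := h.fd
  obtain ⟨n, c, r, h1⟩ := dec_lin h (α := -1) (β := -1) (by decide) (by decide) (by simp [hd])
    (fun _ h => absurd h (by decide))
  obtain ⟨ε, h2⟩ := h1.comN
  exact ⟨ε, CM.of (ty_cyc P) h2⟩

theorem three_single' {P : (ZMod 3)[X]} (h : Prim P) (hd : LinearMap.det (H65.cyc P) = 1)
    (h3 : 3 ≤ P.natDegree) : CM 1 1 {P} := by
  have := h.fd
  obtain ⟨n, hn⟩ := Nat.exists_eq_add_of_le h3
  obtain ⟨c, r, h1⟩ := ((base_pi.up_ne (δ' := 1) (α := -1) (β := -1) (d := 1) pi_eval (by decide)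
    (by decide) (by decide) (by decide) (by decide)).ups (by omega) n).dec (by omega)
    ((H65.finrank_adjoinRoot P).trans hn) (cyc_cyc P) hd trivial
  rw [mul_left_comm] at h1
  exact CM.of (ty_cyc P) h1.comZ

theorem three_pair {P Q : (ZMod 3)[X]} (h : Prim P) (hd : LinearMap.det (H65.cyc P) = -1)
    (h' : Prim Q) (hd' : LinearMap.det (H65.cyc Q) = -1) : ∃ ε, CM (-1) ε ({P} + {Q}) := by
  have := h.fd
  have := h'.fd
  obtain ⟨n, c₁, r₁, k₁⟩ := dec_lin h (α := -1) (β := 1) (by decide) (by decide) (by simp [hd])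
    (fun h2 _ => by simpa [hd] using trace_ne_zero_three h hd h2)
  obtain ⟨m, c₂, r₂, k₂⟩ := dec_lin h' (α := 1) (β := -1) (by decide) (by decide) (by simp [hd'])
    (fun _ h => absurd h (by decide))
  obtain ⟨c, r, k⟩ := k₁.couple k₂ (by simp) (by simp)
  have e1 : (X - C 1) ^ n * (X - C (-1 : ZMod 3)) * ((X - C 1) ^ m * (X - C 1)) =
      (X - C 1) ^ (n + m + 1) * (X - C (-1)) := by ring
  have e2 : (X - C 1) ^ n * (X - C (1 : ZMod 3)) * ((X - C 1) ^ m * (X - C (-1))) =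
      (X - C 1) ^ (n + m + 1) * (X - C (-1)) := by ring
  rw [e1, e2] at k
  obtain ⟨ε, h2⟩ := k.comN
  exact ⟨ε, CM.of ((ty_cyc P).add (ty_cyc Q)) h2⟩

theorem three_pair' {P Q : (ZMod 3)[X]} (h : Prim P) (hd : LinearMap.det (H65.cyc P) = -1)
    (h' : Prim Q) (hd' : LinearMap.det (H65.cyc Q) = -1) (h3 : 3 ≤ P.natDegree) :
    CM 1 1 ({P} + {Q}) := by
  have := h.fd
  have := h'.fd
  obtain ⟨n, hn⟩ := Nat.exists_eq_add_of_le h3
  obtain ⟨c₁, r₁, k₁⟩ := ((base_pi.up_ne (δ' := -1) (α := -1) (β := 1) (d := -1) pi_eval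
    (by decide) (by decide) (by decide) (by decide) (by decide)).ups (by omega) n).dec (by omega)
    ((H65.finrank_adjoinRoot P).trans hn) (cyc_cyc P) hd trivial
  obtain ⟨m, c₂, r₂, k₂⟩ := dec_lin h' (α := 1) (β := -1) (by decide) (by decide) (by simp [hd'])
    (fun _ h => absurd h (by decide))
  obtain ⟨c, r, k⟩ := k₁.couple k₂ (by simp) (by simp)
  have e1 : (X - C 1) ^ n * ((X - C (-1 : ZMod 3)) * q2 1 (-1)) * ((X - C 1) ^ m * (X - C 1)) =
      (X - C (-1)) * ((X - C 1) ^ (n + m + 1) * q2 1 (-1)) := by ring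
  have e2 : (X - C 1) ^ n * ((X - C (1 : ZMod 3)) * q2 1 (-1)) * ((X - C 1) ^ m * (X - C (-1))) =
      (X - C (-1)) * ((X - C 1) ^ (n + m + 1) * q2 1 (-1)) := by ring
  rw [e1, e2] at k
  exact CM.of ((ty_cyc P).add (ty_cyc Q)) k.comZ

theorem three_pair'' {P Q : (ZMod 3)[X]} (h : Prim P) (hd : LinearMap.det (H65.cyc P) = -1)
    (h' : Prim Q) (hd' : LinearMap.det (H65.cyc Q) = -1) (h2 : P.natDegree = 2)
    (h2' : Q.natDegree = 2) : CM 1 1 ({P} + {Q}) := by
  have := h.fd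
  have := h'.fd
  refine CM.of ((ty_cyc P).add (ty_cyc Q)) ?_
  have k1 := (cyc_cyc P).similar_companion ((H65.finrank_adjoinRoot P).trans h2)
  have k2 := (cyc_cyc Q).similar_companion ((H65.finrank_adjoinRoot Q).trans h2')
  rw [hd] at k1
  rw [hd'] at k2
  refine Com.of_similar ?_ ((similar_blk k1 k2).trans (similar_fromBlocks _ _)).symm
  rcases three_cases (trace_ne_zero_three h hd h2) with t1 | t1 <;>
    rcases three_cases (trace_ne_zero_three h' hd' h2') with t2 | t2 <;> rw [t1, t2]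
  · exact com_of_matrix (n := Fin 4) !![2, 0, 0, 0; 0, 1, 0, 0; 2, 0, 0, 1; 0, 1, 1, 0]
      !![0, 1, 2, 1; 2, 1, 2, 1; 2, 0, 1, 0; 0, 1, 1, 2] (by decide +kernel) (by decide +kernel)
      (by decide +kernel)
  · exact com_of_matrix (n := Fin 4) !![0, 0, 1, 0; 1, 0, 0, 1; 0, 0, 0, 2; 0, 1, 0, 0]
      !![1, 0, 2, 1; 0, 1, 1, 2; 1, 2, 0, 2; 0, 1, 1, 1] (by decide +kernel) (by decide +kernel)
      (by decide +kernel)
  · exact com_of_matrix (n := Fin 4) !![0, 1, 0, 0; 0, 0, 0, 2; 1, 0, 1, 1; 1, 0, 2, 0]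
      !![0, 2, 0, 1; 2, 2, 1, 0; 2, 2, 0, 1; 0, 2, 2, 0] (by decide +kernel) (by decide +kernel)
      (by decide +kernel)
  · exact com_of_matrix (n := Fin 4) !![0, 0, 0, 1; 0, 2, 2, 1; 0, 0, 1, 0; 1, 1, 2, 0]
      !![2, 0, 0, 0; 2, 1, 0, 1; 2, 1, 2, 2; 2, 1, 2, 0] (by decide +kernel) (by decide +kernel)
      (by decide +kernel)

theorem CM.three {s : Multiset (ZMod 3)[X]} (h : ∃ ε, CM (-1) ε s) :
    CM (-1) 1 s ∧ CM 1 (-1) s := by
  obtain ⟨ε, h⟩ := h
  have h1 : CM (-1) 1 s ∧ CM (-1) (-1) s := by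
    rcases three_cases h.ne_zero with rfl | rfl
    · exact ⟨h, by simpa using h.right⟩
    · exact ⟨by simpa using h.right, h⟩
  exact ⟨h1.1, by simpa using h1.2.left⟩

theorem CM.three_add {s t : Multiset (ZMod 3)[X]} (h : ∃ ε, CM (-1) ε s) (h' : ∃ ε, CM (-1) ε t) :
    (∃ ε, CM (-1) ε (s + t)) ∧ CM 1 1 (s + t) :=
  ⟨⟨_, by simpa using (CM.three h).1.add (CM.three h').2⟩,
    by simpa using (CM.three h).1.add (CM.three h').1⟩

theorem three_all (n : ℕ) : ∀ s : Multiset (ZMod 3)[X], s.card = n → s ≠ 0 →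
    (∀ P ∈ s, Prim P) → (s.map fun P => LinearMap.det (H65.cyc P)).prod = 1 →
    (∃ ε, CM (-1) ε s) ∧ (CM 1 1 s ∨ (∃ P, s = {P}) ∨ ∃ P Q, s = {P} + {Q} ∧
      LinearMap.det (H65.cyc P) = -1 ∧ LinearMap.det (H65.cyc Q) = -1) := by
  induction n using Nat.strong_induction_on with
  | _ n ih =>
    intro s hn h0 hs hd
    have hne : ∀ P ∈ s, LinearMap.det (H65.cyc P) ≠ 0 := fun P hP h =>
      zero_ne_one ((Multiset.prod_eq_zero (Multiset.mem_map.2 ⟨P, hP, h⟩)).symm.trans hd)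
    obtain ⟨P, hP⟩ := Multiset.exists_mem_of_ne_zero h0
    obtain ⟨t, rfl⟩ := Multiset.exists_cons_of_mem hP
    rw [Multiset.map_cons, Multiset.prod_cons] at hd
    rcases three_cases (hne P hP) with h1 | h1
    · have k := three_single (hs P hP) h1
      by_cases ht : t = 0
      · subst ht
        exact ⟨k, Or.inr (Or.inl ⟨P, rfl⟩)⟩
      · have := CM.three_add k (ih t.card (by simp [← hn]) t rfl ht
          (fun P hP => hs P (by simp [hP])) (by rwa [h1, one_mul] at hd)).1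
        rw [Multiset.singleton_add] at this
        exact ⟨this.1, Or.inl this.2⟩
    · obtain ⟨Q, hQ, h2⟩ : ∃ Q ∈ t, LinearMap.det (H65.cyc Q) = -1 := by
        by_contra! h2
        rw [h1, Multiset.prod_eq_one fun a ha => ?_] at hd
        · revert hd; decide
        · obtain ⟨Q, hQ, rfl⟩ := Multiset.mem_map.1 ha
          exact (three_cases (hne Q (by simp [hQ]))).resolve_right (h2 Q hQ)
      obtain ⟨u, rfl⟩ := Multiset.exists_cons_of_mem hQ
      have k := three_pair (hs P hP) h1 (hs Q (by simp)) h2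
      by_cases hu : u = 0
      · subst hu
        exact ⟨k, Or.inr (Or.inr ⟨P, Q, rfl, h1, h2⟩)⟩
      · have := CM.three_add k (ih u.card (by simp [← hn]) u rfl hu
          (fun P hP => hs P (by simp [hP])) (by
            rw [Multiset.map_cons, Multiset.prod_cons, h1, h2] at hd
            simpa using hd)).1
        rw [add_assoc, Multiset.singleton_add, Multiset.singleton_add] at this
        exact ⟨this.1, Or.inl this.2⟩

theorem com_three {V : Type*} [AddCommGroup V] [Module (ZMod 3) V] [FiniteDimensional (ZMod 3) V]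
    (hn : 3 ≤ finrank (ZMod 3) V) {g : End (ZMod 3) V} (hd : LinearMap.det g = 1) :
    Com 1 1 g := by
  obtain ⟨s, h1, h2, h3, h4⟩ := exists_ty g
  rw [hd] at h3
  obtain ⟨h5, h6 | ⟨P, rfl⟩ | ⟨P, Q, rfl, h6, h7⟩⟩ := three_all _ s rfl (by
    rintro rfl; simp at h4; omega) h2 h3
  · exact h6.use h1
  · exact (three_single' (h2 P (by simp)) (by simpa using h3) (by simp at h4; omega)).use h1
  · have kP := h2 P (by simp)
    have kQ := h2 Q (by simp)
    have h8 : P.natDegree + Q.natDegree = finrank (ZMod 3) V := by simpa using h4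
    by_cases h9 : 3 ≤ P.natDegree
    · exact (three_pair' kP h6 kQ h7 h9).use h1
    by_cases h10 : 3 ≤ Q.natDegree
    · have := three_pair' kQ h7 kP h6 h10
      rw [add_comm] at this
      exact this.use h1
    by_cases h11 : P.natDegree = 2 ∧ Q.natDegree = 2
    · exact (three_pair'' kP h6 kQ h7 h11.1 h11.2).use h1
    have h12 : finrank (ZMod 3) V = 3 := by omega
    have := ((CM.three h5).1.use h1).smul (t := -1) (by decide)
    rwa [h12, show (-1 : ZMod 3) ^ 3 * -1 = 1 by decide] at this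

end H64.Sour
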