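import Mathlib
import Cfsg.Agent.Lib.Sour.Com

/-! The class of elements of order four in `SL₃(3)` squares onto all non-identity elements. -/

set_option autoImplicit false
open Module Polynomial

namespace H64.Sour

/-- nine entries -/
structure M9 where
  (a b c d e f g h i : ℕ)

/-- product -/
def M9.mul (x y : M9) : M9 :=
  ⟨x.a * y.a + x.b * y.d + x.c * y.g, x.a * y.b + x.b * y.e + x.c * y.h,
    x.a * y.c + x.b * y.f + x.c * y.i, x.d * y.a + x.e * y.d + x.f * y.g,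
    x.d * y.b + x.e * y.e + x.f * y.h, x.d * y.c + x.e * y.f + x.f * y.i,
    x.g * y.a + x.h * y.d + x.i * y.g, x.g * y.b + x.h * y.e + x.i * y.h,
    x.g * y.c + x.h * y.f + x.i * y.i⟩

/-- trace -/
def M9.tr (x : M9) : ℕ := x.a + x.e + x.i
/-- second coefficient -/
def M9.e2 (x : M9) : ℕ :=
  x.a * x.e + x.a * x.i + x.e * x.i + 2 * (x.b * x.d + x.c * x.g + x.f * x.h)
/-- determinant -/
def M9.det (x : M9) : ℕ :=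
  x.a * x.e * x.i + x.b * x.f * x.g + x.c * x.d * x.h +
    2 * (x.a * x.f * x.h + x.b * x.d * x.i + x.c * x.e * x.g)

/-- matrix -/
def M9.mat (x : M9) : Matrix (Fin 3) (Fin 3) (ZMod 3) :=
  !![x.a, x.b, x.c; x.d, x.e, x.f; x.g, x.h, x.i]

/-- witnesses -/
def L33 : List M9 := [⟨0, 0, 1, 0, 1, 0, 2, 0, 0⟩, ⟨0, 0, 1, 0, 2, 1, 1, 2, 2⟩,
  ⟨0, 1, 0, 0, 0, 1, 1, 2, 1⟩, ⟨0, 1, 0, 0, 1, 2, 2, 1, 0⟩, ⟨0, 2, 1, 0, 0, 1, 2, 0, 1⟩,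
  ⟨0, 2, 0, 0, 1, 2, 1, 1, 0⟩, ⟨2, 0, 2, 1, 1, 2, 0, 2, 1⟩, ⟨0, 1, 0, 0, 0, 2, 2, 1, 1⟩,
  ⟨1, 2, 0, 2, 0, 2, 2, 2, 0⟩, ⟨1, 0, 0, 2, 1, 1, 2, 1, 2⟩, ⟨0, 1, 0, 2, 1, 1, 1, 0, 0⟩,
  ⟨1, 2, 1, 2, 2, 0, 0, 0, 1⟩, ⟨0, 0, 2, 0, 2, 2, 2, 1, 2⟩, ⟨0, 0, 1, 1, 0, 0, 2, 1, 1⟩,
  ⟨1, 2, 2, 0, 2, 1, 1, 2, 1⟩, ⟨2, 0, 1, 1, 1, 0, 1, 0, 1⟩, ⟨1, 2, 0, 2, 2, 1, 0, 0, 1⟩,
  ⟨0, 2, 1, 2, 2, 0, 2, 2, 2⟩, ⟨0, 0, 2, 1, 2, 1, 1, 1, 2⟩, ⟨1, 0, 1, 2, 1, 0, 1, 0, 2⟩,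
  ⟨0, 1, 2, 0, 2, 2, 1, 2, 2⟩, ⟨2, 1, 2, 1, 0, 1, 0, 2, 2⟩, ⟨0, 0, 2, 2, 1, 2, 0, 1, 0⟩,
  ⟨0, 0, 1, 0, 1, 2, 2, 0, 0⟩, ⟨1, 2, 1, 2, 0, 0, 1, 2, 0⟩, ⟨0, 1, 1, 0, 0, 1, 1, 1, 1⟩,
  ⟨0, 2, 0, 1, 0, 0, 1, 2, 1⟩, ⟨2, 1, 1, 1, 1, 1, 0, 0, 1⟩, ⟨1, 0, 0, 1, 2, 2, 0, 2, 1⟩,
  ⟨1, 0, 0, 2, 1, 2, 0, 2, 2⟩, ⟨0, 0, 2, 2, 2, 0, 0, 1, 2⟩, ⟨0, 2, 0, 1, 1, 2, 1, 0, 0⟩]

/-- class test -/
def M9.ok (x : M9) : Bool := Nat.beq (x.tr % 3) 1 && Nat.beq (x.e2 % 3) 1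

/-- test of one matrix -/
def chk33 (g : M9) : Bool :=
  !(Nat.beq (g.det % 3) 1) || (Nat.beq g.a 1 && Nat.beq g.b 0 && Nat.beq g.c 0 && Nat.beq g.d 0 &&
    Nat.beq g.e 1 && Nat.beq g.f 0 && Nat.beq g.g 0 && Nat.beq g.h 0 && Nat.beq g.i 1) ||
    L33.any fun A => (A.mul g).ok

theorem chk33_all : ([0, 1, 2].all fun a => [0, 1, 2].all fun b => [0, 1, 2].all fun c =>
    [0, 1, 2].all fun d => [0, 1, 2].all fun e => [0, 1, 2].all fun f => [0, 1, 2].all fun g =>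
    [0, 1, 2].all fun h => [0, 1, 2].all fun i => chk33 ⟨a, b, c, d, e, f, g, h, i⟩) = true := by
  decide +kernel

theorem L33_ok : (L33.all fun A => A.ok && Nat.beq (A.det % 3) 1) = true := by decide +kernel

theorem M9.mat_mul (x y : M9) : (x.mul y).mat = x.mat * y.mat := by
  simp [M9.mat, M9.mul, add_assoc]

theorem cast_eq_one {n : ℕ} (h : Nat.beq (n % 3) 1 = true) : (n : ZMod 3) = 1 := by
  rw [← ZMod.natCast_mod, Nat.eq_of_beq_eq_true h, Nat.cast_one]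

theorem M9.det_mat (x : M9) : x.mat.det = x.det := by
  have : (3 : ZMod 3) = 0 := rfl
  simp only [M9.mat, M9.det, Matrix.det_fin_three]
  simp
  linear_combination (-(x.a * x.f * x.h + x.b * x.d * x.i + x.c * x.e * x.g) : ZMod 3) * this

theorem charpoly_three {R : Type*} [CommRing R] (M : Matrix (Fin 3) (Fin 3) R) :
    M.charpoly = X ^ 3 - C (M 0 0 + M 1 1 + M 2 2) * X ^ 2 +
      C (M 0 0 * M 1 1 + M 0 0 * M 2 2 + M 1 1 * M 2 2 -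
        (M 0 1 * M 1 0 + M 0 2 * M 2 0 + M 1 2 * M 2 1)) * X - C M.det := by
  rw [Matrix.charpoly, Matrix.det_fin_three, Matrix.det_fin_three]
  simp
  ring

theorem M9.charpoly {x : M9} (h : x.ok = true) (hd : x.mat.det = 1) :
    x.mat.charpoly = (X - C 1) * (X ^ 2 + 1) := by
  have h3 : (3 : ZMod 3) = 0 := rfl
  simp only [M9.ok, Bool.and_eq_true] at h
  have h1 := cast_eq_one h.1
  have h2 := cast_eq_one h.2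
  simp only [M9.tr, M9.e2] at h1 h2
  push_cast at h1 h2
  have k1 : x.mat 0 0 + x.mat 1 1 + x.mat 2 2 = 1 := by simpa [M9.mat] using h1
  have k2 : x.mat 0 0 * x.mat 1 1 + x.mat 0 0 * x.mat 2 2 + x.mat 1 1 * x.mat 2 2 -
      (x.mat 0 1 * x.mat 1 0 + x.mat 0 2 * x.mat 2 0 + x.mat 1 2 * x.mat 2 1) = 1 := by
    simp [M9.mat]
    linear_combination h2 - (x.b * x.d + x.c * x.g + x.f * x.h : ZMod 3) * h3
  rw [charpoly_three, k1, k2, hd, C_1]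
  ring

theorem sl33 (g : Matrix (Fin 3) (Fin 3) (ZMod 3)) (hd : g.det = 1) (h1 : g ≠ 1) :
    ∃ A : Matrix (Fin 3) (Fin 3) (ZMod 3), A.det = 1 ∧ A.charpoly = (X - C 1) * (X ^ 2 + 1) ∧
      (A * g).charpoly = (X - C 1) * (X ^ 2 + 1) := by
  let x : M9 := ⟨(g 0 0).val, (g 0 1).val, (g 0 2).val, (g 1 0).val, (g 1 1).val, (g 1 2).val,
    (g 2 0).val, (g 2 1).val, (g 2 2).val⟩
  have hx : x.mat = g := by
    ext i j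
    fin_cases i <;> fin_cases j <;> simp [x, M9.mat]
  have hv : ∀ t : ZMod 3, t.val ∈ [0, 1, 2] := by decide
  have h := chk33_all
  simp only [List.all_eq_true] at h
  have h2 : chk33 x = true := h _ (hv _) _ (hv _) _ (hv _) _ (hv _) _ (hv _) _ (hv _) _ (hv _) _
    (hv _) _ (hv _)
  simp only [chk33, Bool.or_eq_true, Bool.not_eq_true', Bool.and_eq_true, List.any_eq_true] at h2
  rcases h2 with (h2 | h2) | ⟨A, hA, h2⟩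
  · exfalso
    have h3 := x.det_mat
    rw [hx, hd] at h3
    have h4 : x.det % 3 = 1 := by
      have := (ZMod.natCast_eq_natCast_iff' 1 x.det 3).1 (by simpa using h3)
      omega
    simp [h4] at h2
  · exfalso
    simp only [Nat.beq_eq] at h2
    refine h1 ?_
    rw [← hx, M9.mat]
    obtain ⟨⟨⟨⟨⟨⟨⟨⟨k1, k2⟩, k3⟩, k4⟩, k5⟩, k6⟩, k7⟩, k8⟩, k9⟩ := h2
    rw [k1, k2, k3, k4, k5, k6, k7, k8, k9, Matrix.one_fin_three]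
    simp
  · have h3 := L33_ok
    simp only [List.all_eq_true, Bool.and_eq_true] at h3
    obtain ⟨h4, h5⟩ := h3 A hA
    have h6 : A.mat.det = 1 := by rw [M9.det_mat, cast_eq_one h5]
    refine ⟨A.mat, h6, M9.charpoly h4 h6, ?_⟩
    rw [← hx, ← M9.mat_mul]
    exact M9.charpoly h2 (by rw [M9.mat_mul, Matrix.det_mul, h6, hx, hd, mul_one])

end H64.Sour
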